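import Groth.Prelude.Def_SixF1
import Groth.Agent.Etdl.H424.PlusAdj
import Groth.Agent.Etrest.ModAb
import Groth.Agent.S0101
import Mathlib.CategoryTheory.Preadditive.Injective.Preserves

/-!
# Inverse and direct images of sheaves of `Λ`-modules on `D^+`

* `preservesFiniteLimits_pull`, `preservesInjective_push`;
* `isIso_rPlusDesc₂`: the canonical morphism `R⁺H ⟶ R⁺F ⋙ R⁺G` is an isomorphism if `θ : H ⟶ F ⋙ G` is one and
  `F` sends injective objects to `G`-acyclic objects;
* `isIso_compMapMod` (S4330), `adj` (S4333).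
-/

set_option autoImplicit false
universe v₁ v₂ v₃ u₁ u₂ u₃ u
open CategoryTheory CategoryTheory.Limits AlgebraicGeometry Opposite
attribute [local instance] HasDerivedCategory.standard

namespace Groth.Agent.Etdl.H424.PullPushPlus

section generic

variable {A : Type u₁} [Category.{v₁} A] [Abelian A] {B : Type u₂} [Category.{v₂} B] [Abelian B]
  {C : Type u₃} [Category.{v₃} C] [Abelian C]
  [HasDerivedCategory A] [HasDerivedCategory B] [HasDerivedCategory C]
  {F : A ⥤ B} {G : B ⥤ C} {H : A ⥤ C} [F.Additive] [G.Additive] [H.Additive]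
  [EnoughInjectives A] [EnoughInjectives B]

omit [EnoughInjectives A] [HasDerivedCategory A] [HasDerivedCategory B] [HasDerivedCategory C]
  [Abelian C] [EnoughInjectives B] in
theorem isIso_plusNatTrans {F G : A ⥤ B} [F.Additive] [G.Additive] (α : F ⟶ G) [IsIso α] :
    IsIso (EtSix.plusNatTrans α) := by
  have h : EtSix.plusNatTrans α = PlusAdj.mapHoPlus α := by
    apply ((HomotopyCategory.plus B).fullyFaithfulι.whiskeringRight
      (HomotopyCategory.Plus A)).map_injective
    rw [EtSix.plusNatTrans, Functor.FullyFaithful.map_preimage]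
    rfl
  rw [h]
  exact (PlusAdj.mapHoPlusIso (asIso α)).isIso_hom

theorem isRightDerivedFunctor_rPlusUnit₂ (θ : H ⟶ F ⋙ G) [IsIso θ] [PreservesFiniteLimits G]
    (hF : ∀ I : A, Injective I → ∀ i : ℕ, 0 < i → IsZero ((G.rightDerived i).obj (F.obj I))) :
    (F.rightDerivedFunctorPlus ⋙ G.rightDerivedFunctorPlus).IsRightDerivedFunctor
      (EtSix.rPlusUnit₂ θ) (HomotopyCategory.Plus.quasiIso A) := by
  refine (HomotopyCategory.Plus.localizerMorphism_derives _).isRightDerivedFunctor_of_isIso _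
    (fun X => ?_)
  have h1 : IsIso (G.rightDerivedFunctorPlusUnit.app
      (F.mapHomotopyCategoryPlus.obj ((InjectiveObject.ι A).mapHomotopyCategoryPlus.obj X))) := by
    obtain ⟨X, rfl⟩ := HomotopyCategory.Plus.quotient_obj_surjective X
    exact Cohder.RDPlusAcyc.isIso_unit_app G
      (F.mapCochainComplexPlus.obj ((InjectiveObject.ι A).mapCochainComplexPlus.obj X))
      (fun m i hi => hF _ (inferInstance : Injective
        (((InjectiveObject.ι A).mapHomotopyCategoryPlus.obj
          ((HomotopyCategory.Plus.quotient _).obj X)).obj.as.X m)) i hi)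
  have h2 : IsIso (F.rightDerivedFunctorPlusUnit.app
      ((InjectiveObject.ι A).mapHomotopyCategoryPlus.obj X)) := by
    infer_instance
  have h3 := isIso_plusNatTrans θ
  dsimp [EtSix.rPlusUnit₂]
  infer_instance

/-- The canonical morphism `R⁺H ⟶ R⁺F ⋙ R⁺G` is an isomorphism. -/
theorem isIso_rPlusDesc₂ (θ : H ⟶ F ⋙ G) [IsIso θ] [PreservesFiniteLimits G]
    (hF : ∀ I : A, Injective I → ∀ i : ℕ, 0 < i → IsZero ((G.rightDerived i).obj (F.obj I))) :
    IsIso (EtSix.rPlusDesc₂ θ) := by
  have := isRightDerivedFunctor_rPlusUnit₂ θ hF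
  exact (Functor.isRightDerivedFunctor_iff_isIso_rightDerivedDesc _ _ _ _ _).1 this

end generic

open Groth.Agent.Etrest.ModAb

variable (Λ : Type (u + 1)) [CommRing Λ] {X Y Z : Scheme.{u}}

instance preservesFiniteLimits_pull (f : X ⟶ Y) : PreservesFiniteLimits (EtModW.pull Λ f) := by
  have h1 : PreservesFiniteLimits (EtCoh.pull f) := Groth.Agent.S0101.result f
  have h2 : PreservesFiniteLimits (EtModW.pull Λ f ⋙ ab Λ X) :=
    preservesFiniteLimits_of_natIso (pullIso Λ f).symm
  exact preservesFiniteLimits_of_reflects_of_preserves _ (ab Λ X)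

instance preservesInjective_push (f : X ⟶ Y) : (EtModW.push Λ f).PreservesInjectiveObjects :=
  Functor.preservesInjectiveObjects_of_adjunction_of_preservesMonomorphisms (pullPushAdj Λ f)

instance preservesFiniteLimits_push (f : X ⟶ Y) : PreservesFiniteLimits (EtModW.push Λ f) :=
  have : PreservesLimitsOfSize.{0, 0} (EtModW.push Λ f) :=
    (pullPushAdj Λ f).rightAdjoint_preservesLimits
  PreservesLimitsOfSize.preservesFiniteLimits _

theorem isZero_rightDerived_push (f : X ⟶ Y) (g : Y ⟶ Z) (I : EtModW.Mod Λ X) (hI : Injective I)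
    (i : ℕ) (hi : 0 < i) : IsZero (((EtModW.push Λ g).rightDerived i).obj ((EtModW.push Λ f).obj I)) := by
  obtain ⟨i, rfl⟩ : ∃ r, i = r + 1 := ⟨i - 1, by omega⟩
  have := (EtModW.push Λ f).injective_obj I
  exact (EtModW.push Λ g).isZero_rightDerived_obj_injective_succ i _

/-- `R⁺(g ∘ f)_* ≅ R⁺g_* ∘ R⁺f_*`. -/
theorem isIso_compMapMod (f : X ⟶ Y) (g : Y ⟶ Z) : IsIso (EtSix.compMapMod Λ f g) :=
  isIso_rPlusDesc₂ _ (isZero_rightDerived_push Λ f g)

/-- `R⁺g^* ⊣ R⁺g_*`. -/
noncomputable def adj (g : X ⟶ Y) :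
    (EtModW.pull Λ g).rightDerivedFunctorPlus ⊣ (EtModW.push Λ g).rightDerivedFunctorPlus :=
  PlusAdj.dadj (pullPushAdj Λ g)

end Groth.Agent.Etdl.H424.PullPushPlus
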